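import Cfsg.Agent.H80.VFree.Words

/-! The group of pairs (group element, path) of a finite group acting on a graph, its free
subgroup and the conjugacy of its finite subgroups into a vertex stabilizer. -/

set_option autoImplicit false

namespace Cfsg.Agent.H80.VFree

open FreeGroup
open scoped Classical

universe u v w
variable {K : Type w} [Group K] {E : Type u} {V : Type v} [MulAction K E] [MulAction K V]
  (src tgt : E → V)

/-- The action on the free group by permuting the edges. -/
def permAut : K →* MulAut (FreeGroup E) where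
  toFun g := FreeGroup.freeGroupCongr (MulAction.toPerm g)
  map_one' := by
    refine MulEquiv.ext fun x => ?_
    show FreeGroup.map _ x = x
    rw [show ((MulAction.toPerm (1 : K) : Equiv.Perm E) : E → E) = id from funext (one_smul K)]
    exact FreeGroup.map.id x
  map_mul' g h := by
    refine MulEquiv.ext fun x => ?_
    show FreeGroup.map _ x = FreeGroup.map _ (FreeGroup.map _ x)
    rw [FreeGroup.map.comp]
    congr 2
    exact funext (mul_smul g h)

theorem permAut_apply (g : K) (x : FreeGroup E) : permAut g x = FreeGroup.map (fun e => g • e) x :=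
  rfl

theorem toWord_permAut (g : K) (x : FreeGroup E) :
    (permAut g x).toWord = x.toWord.map fun z => (g • z.1, z.2) := by
  rw [permAut_apply, toWord_map_injective (MulAction.injective g)]

/-- The two incidence maps commute with the action. -/
structure Equivariant : Prop where
  src_smul : ∀ (g : K) (e : E), src (g • e) = g • src e
  tgt_smul : ∀ (g : K) (e : E), tgt (g • e) = g • tgt e

variable {src tgt}

theorem isPath_smul (hq : Equivariant (K := K) src tgt) (g : K) {L : List (E × Bool)} :
    ∀ {a b : V}, IsPath src tgt a L b →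
      IsPath src tgt (g • a) (L.map fun z => (g • z.1, z.2)) (g • b) := by
  induction L with
  | nil => intro a b h; exact congrArg (g • ·) h
  | cons x L ih =>
    intro a b h
    obtain ⟨h1, h2⟩ := h
    obtain ⟨e, s⟩ := x
    refine ⟨?_, ?_⟩
    · rw [← h1]
      cases s
      · exact hq.tgt_smul g e
      · exact hq.src_smul g e
    · have := ih h2
      cases s
      · simpa [fin, hq.src_smul] using this
      · simpa [fin, hq.tgt_smul] using this

theorem IsPathEl.smul (hq : Equivariant (K := K) src tgt) (g : K) {a b : V} {x : FreeGroup E}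
    (h : IsPathEl src tgt a x b) : IsPathEl src tgt (g • a) (permAut g x) (g • b) := by
  unfold IsPathEl
  rw [toWord_permAut]
  exact isPath_smul hq g h

/-- The pairs of a group element `k` and a path from `v₀` to `k • v₀`. -/
def pathGroup (hq : Equivariant (K := K) src tgt) (v₀ : V) :
    Subgroup (SemidirectProduct (FreeGroup E) K permAut) where
  carrier := {x | IsPathEl src tgt v₀ x.left (x.right • v₀)}
  one_mem' := by
    show IsPathEl src tgt v₀ 1 ((1 : K) • v₀)
    rw [one_smul]
    exact isPathEl_one v₀
  mul_mem' := by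
    intro x y hx hy
    show IsPathEl src tgt v₀ (x.left * permAut x.right y.left) ((x.right * y.right) • v₀)
    rw [mul_smul]
    exact hx.mul (hy.smul hq x.right)
  inv_mem' := by
    intro x hx
    show IsPathEl src tgt v₀ (permAut x.right⁻¹ x.left⁻¹) (x.right⁻¹ • v₀)
    have := hx.inv.smul hq x.right⁻¹
    rwa [inv_smul_smul] at this

variable {hq : Equivariant (K := K) src tgt} {v₀ : V}

theorem mem_pathGroup {x : SemidirectProduct (FreeGroup E) K permAut} :
    x ∈ pathGroup hq v₀ ↔ IsPathEl src tgt v₀ x.left (x.right • v₀) := Iff.rfl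

/-- The projection to the finite group. -/
def proj (hq : Equivariant (K := K) src tgt) (v₀ : V) : pathGroup hq v₀ →* K :=
  SemidirectProduct.rightHom.comp (pathGroup hq v₀).subtype

/-- The loops form a free normal subgroup. -/
theorem isFreeGroup_ker : IsFreeGroup (proj hq v₀).ker := by
  let f : (proj hq v₀).ker →* FreeGroup E :=
    { toFun := fun x => x.1.1.left
      map_one' := rfl
      map_mul' := fun x y => by
        have hx : x.1.1.right = 1 := x.2
        show x.1.1.left * permAut x.1.1.right y.1.1.left = _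
        rw [hx, _root_.map_one]
        rfl }
  have hf : Function.Injective f := fun x y h =>
    Subtype.ext (Subtype.ext (SemidirectProduct.ext h (x.2.trans y.2.symm)))
  exact IsFreeGroup.ofMulEquiv (MonoidHom.ofInjective hf).symm

/-- A finite group of pairs fixes a vertex of the covering tree. -/
theorem exists_conj_left_eq_one [MulAction.IsPretransitive K V]
    (H : Subgroup (pathGroup hq v₀)) [Finite H] :
    ∃ g : pathGroup hq v₀, ∀ h ∈ H, (g * h * g⁻¹).1.left = 1 := by
  haveI := Fintype.ofFinite H
  set O : Finset (FreeGroup E) := Finset.univ.image fun h : H => h.1.1.left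
  set R : FreeGroup E → ℕ := fun y => O.sup fun o => FreeGroup.norm (y⁻¹ * o)
  have hO1 : (1 : FreeGroup E) ∈ O := Finset.mem_image.2 ⟨1, Finset.mem_univ _, rfl⟩
  have heven : ∀ o ∈ O, ((FreeGroup.norm o : ℕ) : ZMod 2) = 0 := by
    intro o ho
    obtain ⟨h, -, rfl⟩ := Finset.mem_image.1 ho
    let χ : SemidirectProduct (FreeGroup E) K permAut →* Multiplicative ℤ :=
      { toFun := fun x => expSum x.left
        map_one' := _root_.map_one _
        map_mul' := fun x y => by
          show expSum (x.left * permAut x.right y.left) = _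
          rw [_root_.map_mul, permAut_apply, expSum_map] }
    let χ' : H →* Multiplicative ℤ := (χ.comp (pathGroup hq v₀).subtype).comp H.subtype
    rw [norm_mod_two]
    have : χ' h = 1 := by
      have h1 : χ' h ^ Nat.card H = 1 := by rw [← _root_.map_pow, pow_card_eq_one', _root_.map_one]
      exact (pow_eq_one_iff_left Nat.card_pos.ne').1 h1
    rw [show expSum h.1.1.left = 1 from this]
    simp
  have hadd : ∀ y o : FreeGroup E, o ∈ O →
      ((FreeGroup.norm (y⁻¹ * o) : ℕ) : ZMod 2) = ((FreeGroup.norm y : ℕ) : ZMod 2) := by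
    intro y o ho
    have h1 : ((FreeGroup.norm (y⁻¹ * o) : ℕ) : ZMod 2) =
        ((FreeGroup.norm y⁻¹ : ℕ) : ZMod 2) + ((FreeGroup.norm o : ℕ) : ZMod 2) := by
      rw [norm_mod_two, norm_mod_two, norm_mod_two, _root_.map_mul, toAdd_mul, Int.cast_add]
    rw [h1, heven o ho, add_zero, FreeGroup.norm_inv_eq]
  -- candidates
  set Y : Set (FreeGroup E) := {y | ∃ b, IsPathEl src tgt v₀ y b}
  have hY : Y.Nonempty := ⟨1, v₀, isPathEl_one v₀⟩
  obtain ⟨y, hy, hmin⟩ : ∃ y ∈ Y, ∀ z ∈ Y, R y ≤ R z :=
    ⟨Function.argminOn R Y hY, Function.argminOn_mem R Y hY, fun z hz => Function.argminOn_le R Y hz⟩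
  have huniq : ∀ z ∈ Y, R z = R y → z = y := by
    intro z hz hzR
    by_contra hne
    cases hu : (y⁻¹ * z).toWord with
    | nil =>
      rw [toWord_eq_nil_iff, inv_mul_eq_one] at hu
      exact hne hu.symm
    | cons a r =>
      set m : FreeGroup E := y * mk [a]
      have hm : m ∈ Y := by
        obtain ⟨b, hb⟩ := hy
        obtain ⟨c, hc⟩ := hz
        have huP : IsPathEl src tgt b (y⁻¹ * z) c := hb.inv.mul hc
        unfold IsPathEl at huP
        rw [hu] at huP
        obtain ⟨h1, -⟩ := huP
        refine ⟨fin src tgt a, hb.mul ?_⟩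
        unfold IsPathEl
        rw [toWord_mk_singleton]
        exact ⟨h1, rfl⟩
      have hzy : ∀ o, (y⁻¹ * z)⁻¹ * (y⁻¹ * o) = z⁻¹ * o := fun o => by group
      have hmy : ∀ o, (mk [a])⁻¹ * (y⁻¹ * o) = m⁻¹ * o := fun o => by
        simp only [m]; group
      have hle : ∀ {x : FreeGroup E} {o}, o ∈ O → FreeGroup.norm (x⁻¹ * o) ≤ R x := fun ho =>
        Finset.le_sup (f := fun o => FreeGroup.norm (_⁻¹ * o)) ho
      have hnu : FreeGroup.norm (y⁻¹ * z) = r.length + 1 := by
        rw [FreeGroup.norm, hu]; rfl
      by_cases hlong : 1 ≤ r.length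
      · -- the midpoint is strictly better
        have hlt : ∀ o ∈ O, FreeGroup.norm (m⁻¹ * o) + 1 ≤ R y := by
          intro o ho
          rcases norm_step (w := y⁻¹ * o) hu with h | ⟨h1, h2⟩
          · rw [hmy] at h
            have := hle (x := y) ho
            omega
          · rw [hmy] at h1
            rw [hzy] at h2
            have := hle (x := z) ho
            omega
        obtain ⟨o, ho, hoR⟩ := Finset.exists_mem_eq_sup O ⟨1, hO1⟩
          (fun o => FreeGroup.norm (m⁻¹ * o))
        have h1 := hmin m hm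
        have h2 := hlt o ho
        have h3 : R m = FreeGroup.norm (m⁻¹ * o) := hoR
        omega
      · have hr : r = [] := List.eq_nil_of_length_eq_zero (by omega)
        subst hr
        have hzm : m = z := by
          have : (mk [a] : FreeGroup E) = y⁻¹ * z :=
            toWord_injective (by rw [toWord_mk_singleton, hu])
          simp [m, this]
        obtain ⟨o, ho, hoR⟩ := Finset.exists_mem_eq_sup O ⟨1, hO1⟩
          (fun o => FreeGroup.norm (z⁻¹ * o))
        have hoR' : R z = FreeGroup.norm (z⁻¹ * o) := hoR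
        obtain ⟨o', ho', hoR''⟩ := Finset.exists_mem_eq_sup O ⟨1, hO1⟩
          (fun o => FreeGroup.norm (y⁻¹ * o))
        have hoy : R y = FreeGroup.norm (y⁻¹ * o') := hoR''
        have hle1 := hle (x := y) ho
        have hstep : FreeGroup.norm (z⁻¹ * o) + 1 = FreeGroup.norm (y⁻¹ * o) ∨
            FreeGroup.norm (z⁻¹ * o) = FreeGroup.norm (y⁻¹ * o) + 1 := by
          rcases norm_step (w := y⁻¹ * o) hu with h | ⟨h1, -⟩
          · left; rwa [hmy, hzm] at h
          · right; rwa [hmy, hzm] at h1
        have hpar : ((FreeGroup.norm (y⁻¹ * o) : ℕ) : ZMod 2) =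
            ((FreeGroup.norm (y⁻¹ * o') : ℕ) : ZMod 2) := by rw [hadd y o ho, hadd y o' ho']
        rw [ZMod.natCast_eq_natCast_iff'] at hpar
        omega
  -- `y` is fixed
  obtain ⟨b, hb⟩ := hy
  obtain ⟨k, rfl⟩ := MulAction.exists_smul_eq K v₀ b
  let g₀ : pathGroup hq v₀ := ⟨⟨y, k⟩, hb⟩
  have hfix : ∀ h ∈ H, h.1.left * permAut h.1.right y = y := by
    intro h hh
    refine huniq _ ⟨_, (mem_pathGroup.1 h.2).mul (hb.smul hq _)⟩ ?_
    refine le_antisymm (Finset.sup_le fun o ho => ?_) (hmin _ ⟨_, (mem_pathGroup.1 h.2).mul (hb.smul hq _)⟩)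
    obtain ⟨h', -, rfl⟩ := Finset.mem_image.1 ho
    set h'' : H := ⟨h, hh⟩⁻¹ * h'
    have he : h'.1.1.left = h.1.left * permAut h.1.right h''.1.1.left := by
      have : (⟨h, hh⟩ : H) * h'' = h' := mul_inv_cancel_left _ _
      rw [← this]
      rfl
    have hn : ∀ x : FreeGroup E, FreeGroup.norm (permAut h.1.right x) = FreeGroup.norm x := fun x => by
      rw [FreeGroup.norm, toWord_permAut, List.length_map]; rfl
    rw [he, mul_inv_rev, mul_assoc, inv_mul_cancel_left, ← _root_.map_inv, ← _root_.map_mul, hn]
    exact Finset.le_sup (f := fun o => FreeGroup.norm (y⁻¹ * o))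
      (Finset.mem_image.2 ⟨h'', Finset.mem_univ _, rfl⟩)
  refine ⟨g₀⁻¹, fun h hh => ?_⟩
  show (g₀.1⁻¹ * h.1 * g₀.1⁻¹⁻¹).left = 1
  rw [inv_inv, mul_assoc, SemidirectProduct.mul_left, SemidirectProduct.mul_left, hfix h hh,
    SemidirectProduct.inv_left, SemidirectProduct.inv_right, ← _root_.map_mul, inv_mul_cancel,
    _root_.map_one]

end Cfsg.Agent.H80.VFree
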