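import Cfsg.Prelude.Def_FusionSystem
import Cfsg.Agent.H80.VFree.Group

/-! Every fusion system is realized by a virtually free group. -/

set_option autoImplicit false

namespace Cfsg.Agent.H80.VFree

open Cfsg Cfsg.FusionSystem
open scoped Classical

universe u
variable {Ω : Type u} [Group Ω] {S : Subgroup Ω}

/-- The left regular representation. -/
noncomputable def reg (S : Subgroup Ω) : S →* Equiv.Perm S := MulAction.toPermHom S S

theorem reg_apply (s x : S) : reg S s x = s * x := rfl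

theorem reg_injective : Function.Injective (reg S) := fun s t h => by
  simpa [reg_apply] using DFunLike.congr_fun h 1

/-- The group as a product of the coset space and a subgroup, through right cosets. -/
noncomputable def cosetProd {G : Type*} [Group G] (A : Subgroup G) : (G ⧸ A) × A ≃ G where
  toFun z := ((Quotient.out z.1 : G) * (z.2 : G))⁻¹
  invFun s := ⟨(s⁻¹ : G), ⟨(Quotient.out ((s⁻¹ : G) : G ⧸ A))⁻¹ * s⁻¹,
    QuotientGroup.eq.1 (QuotientGroup.out_eq' _)⟩⟩
  left_inv := fun ⟨q, a⟩ => by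
    have h : ((Quotient.out q * (a : G) : G) : G ⧸ A) = q := by
      rw [QuotientGroup.mk_mul_of_mem _ a.2, QuotientGroup.out_eq']
    simp only [inv_inv]
    refine Prod.ext h (Subtype.ext ?_)
    simp only [h, inv_mul_cancel_left]
  right_inv s := by simp

/-- An injective map between subgroups of `S` is induced by a permutation of `S`. -/
theorem exists_intertwine [Finite S] {P : Subgroup Ω} (hP : P ≤ S) (φ : P →* Ω)
    (hφ : Function.Injective φ) (hφS : ∀ x : P, φ x ∈ S) :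
    ∃ k : Equiv.Perm S, ∀ x : P, k * reg S ⟨x, hP x.2⟩ * k⁻¹ = reg S ⟨φ x, hφS x⟩ := by
  let A : Subgroup S := P.subgroupOf S
  let eA : A ≃* P := Subgroup.subgroupOfEquivOfLe hP
  let ψ : A →* S := (φ.codRestrict S hφS).comp eA.toMonoidHom
  have hψ : Function.Injective ψ := fun x y h => eA.injective (hφ (congrArg Subtype.val h))
  let B : Subgroup S := ψ.range
  let e : A ≃* B := MonoidHom.ofInjective hψ
  have hcard : A.index = B.index := by
    have h1 := A.card_mul_index
    rw [Nat.card_congr e.toEquiv, ← B.card_mul_index] at h1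
    exact Nat.eq_of_mul_eq_mul_left Nat.card_pos h1
  let σ : (S ⧸ A) ≃ (S ⧸ B) :=
    Classical.choice (Finite.card_eq.1 (by rw [← Subgroup.index_eq_card, ← Subgroup.index_eq_card, hcard]))
  -- right cosets through inversion
  let rA : S ≃ (S ⧸ A) × A := (cosetProd A).symm
  let rB : S ≃ (S ⧸ B) × B := (cosetProd B).symm
  have hAc : ∀ (q : S ⧸ A) (a a' : A), rA.symm (q, a * a') = (a' : S)⁻¹ * rA.symm (q, a) := by
    intro q a a'
    show ((Quotient.out q : S) * ((a * a' : A) : S))⁻¹ = (a' : S)⁻¹ * ((Quotient.out q : S) * (a : S))⁻¹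
    rw [Subgroup.coe_mul]; group
  have hBc : ∀ (q : S ⧸ B) (a a' : B), rB.symm (q, a * a') = (a' : S)⁻¹ * rB.symm (q, a) := by
    intro q a a'
    show ((Quotient.out q : S) * ((a * a' : B) : S))⁻¹ = (a' : S)⁻¹ * ((Quotient.out q : S) * (a : S))⁻¹
    rw [Subgroup.coe_mul]; group
  let k : Equiv.Perm S := rA.trans ((σ.prodCongr e.toEquiv).trans rB.symm)
  have hk : ∀ (a : A) (s : S), k ((a : S) * s) = ψ a * k s := by
    intro a s
    obtain ⟨⟨q, b⟩, rfl⟩ := rA.symm.surjective s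
    have h1 : (a : S) * rA.symm (q, b) = rA.symm (q, b * a⁻¹) := by
      rw [hAc, Subgroup.coe_inv, inv_inv]
    rw [h1]
    show rB.symm ((σ.prodCongr e.toEquiv) (rA (rA.symm (q, b * a⁻¹)))) =
      ψ a * rB.symm ((σ.prodCongr e.toEquiv) (rA (rA.symm (q, b))))
    rw [Equiv.apply_symm_apply, Equiv.apply_symm_apply]
    show rB.symm (σ q, e (b * a⁻¹)) = ψ a * rB.symm (σ q, e b)
    rw [_root_.map_mul, hBc, _root_.map_inv, Subgroup.coe_inv, inv_inv]
    rfl
  refine ⟨k, fun x => Equiv.ext fun s => ?_⟩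
  rw [Equiv.Perm.mul_apply, Equiv.Perm.mul_apply, reg_apply, reg_apply]
  have h2 := hk (eA.symm x) (k⁻¹ s)
  rw [show k (k⁻¹ s) = s from k.apply_symm_apply s] at h2
  have h3 : ((eA.symm x : A) : S) = ⟨x, hP x.2⟩ := Subtype.ext rfl
  have h4 : ψ (eA.symm x) = ⟨φ x, hφS x⟩ := Subtype.ext (by
    show φ (eA (eA.symm x)) = φ x
    rw [MulEquiv.apply_symm_apply])
  rwa [h3, h4] at h2

variable [Finite S] (F : FusionSystem S)

/-- The maps of the system, with their sources. -/
def Idx : Type u := Σ P : Subgroup Ω, {φ : P →* Ω // φ ∈ F.Hom P}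

variable {F}

theorem Idx.source_le (a : Idx F) : a.1 ≤ S := (F.le_of_mem a.2.2).1

theorem Idx.target_mem (a : Idx F) (x : a.1) : a.2.1 x ∈ S := (F.le_of_mem a.2.2).2 x

/-- The permutation attached to a map. -/
noncomputable def Idx.perm (a : Idx F) : Equiv.Perm S :=
  (exists_intertwine a.source_le a.2.1 (F.injective_of_mem a.2.2) a.target_mem).choose

theorem Idx.perm_spec (a : Idx F) (x : a.1) :
    a.perm * reg S ⟨x, a.source_le x.2⟩ * a.perm⁻¹ = reg S ⟨a.2.1 x, a.target_mem x⟩ :=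
  (exists_intertwine a.source_le a.2.1 (F.injective_of_mem a.2.2) a.target_mem).choose_spec x

/-- The stabilizer of the edge of a map. -/
noncomputable def Idx.stab (a : Idx F) : Subgroup (Equiv.Perm S) :=
  (a.2.1.range.subgroupOf S).map (reg S)

theorem Idx.mem_stab (a : Idx F) {g : Equiv.Perm S} :
    g ∈ a.stab ↔ ∃ x : a.1, reg S ⟨a.2.1 x, a.target_mem x⟩ = g := by
  constructor
  · rintro ⟨s, hs, rfl⟩
    obtain ⟨x, hx⟩ := Subgroup.mem_subgroupOf.1 hs
    exact ⟨x, congrArg _ (Subtype.ext hx)⟩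
  · rintro ⟨x, rfl⟩
    exact ⟨_, Subgroup.mem_subgroupOf.2 ⟨x, rfl⟩, rfl⟩

variable (F)

/-- The vertices. -/
abbrev Vert (S : Subgroup Ω) : Type u := Equiv.Perm S ⧸ (reg S).range

/-- The edges. -/
def Edge : Type u := Σ a : Idx F, Equiv.Perm S ⧸ a.stab

noncomputable instance : MulAction (Equiv.Perm S) (Edge F) where
  smul g e := ⟨e.1, g • e.2⟩
  one_smul e := Sigma.ext rfl (heq_of_eq (one_smul (Equiv.Perm S) e.2))
  mul_smul g h e := Sigma.ext rfl (heq_of_eq (mul_smul g h e.2))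

theorem edge_smul (g : Equiv.Perm S) (a : Idx F) (q : Equiv.Perm S ⧸ a.stab) :
    (g • (⟨a, q⟩ : Edge F) : Edge F) = ⟨a, g • q⟩ := rfl

theorem stab_le (a : Idx F) : a.stab ≤ (reg S).range := by
  intro g hg
  obtain ⟨x, rfl⟩ := a.mem_stab.1 hg
  exact ⟨_, rfl⟩

/-- The initial vertex of an edge. -/
noncomputable def esrc (e : Edge F) : Vert S :=
  Quotient.liftOn' e.2 (fun g => (g : Vert S)) fun g g' h => by
    rw [QuotientGroup.leftRel_apply] at h
    exact QuotientGroup.eq.2 (stab_le F _ h)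

/-- The final vertex of an edge. -/
noncomputable def etgt (e : Edge F) : Vert S :=
  Quotient.liftOn' e.2 (fun g => ((g * e.1.perm : Equiv.Perm S) : Vert S)) fun g g' h => by
    rw [QuotientGroup.leftRel_apply] at h
    obtain ⟨x, hx⟩ := e.1.mem_stab.1 h
    refine QuotientGroup.eq.2 ?_
    rw [mul_inv_rev, mul_assoc, ← mul_assoc g⁻¹, ← hx, ← e.1.perm_spec x]
    exact ⟨⟨x, e.1.source_le x.2⟩, by group⟩

theorem equivariant : Equivariant (K := Equiv.Perm S) (esrc F) (etgt F) where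
  src_smul g := by
    rintro ⟨a, q⟩
    induction q using Quotient.inductionOn' with
    | h x => rfl
  tgt_smul g := by
    rintro ⟨a, q⟩
    induction q using Quotient.inductionOn' with
    | h x => exact congrArg (QuotientGroup.mk (s := (reg S).range)) (mul_assoc g x a.perm)

/-- The group. -/
noncomputable abbrev RGroup : Subgroup (SemidirectProduct (FreeGroup (Edge F)) (Equiv.Perm S) permAut) :=
  pathGroup (equivariant F) (((1 : Equiv.Perm S)) : Vert S)

theorem smul_base (k : Equiv.Perm S) :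
    k • (((1 : Equiv.Perm S)) : Vert S) = (k : Vert S) :=
  congrArg (QuotientGroup.mk (s := (reg S).range)) (mul_one k)

theorem mk_eq_base {k : Equiv.Perm S} :
    (k : Vert S) = ((1 : Equiv.Perm S) : Vert S) ↔ k ∈ (reg S).range := by
  rw [QuotientGroup.eq, mul_one, inv_mem_iff]

/-- The embedding of `S`. -/
noncomputable def emb : S →* RGroup F :=
  ((SemidirectProduct.inr).comp (reg S)).codRestrict _ fun s => by
    show IsPathEl (esrc F) (etgt F) _ (1 : FreeGroup (Edge F)) (reg S s • _)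
    rw [smul_base, mk_eq_base.2 ⟨s, rfl⟩]
    exact isPathEl_one _

theorem emb_injective : Function.Injective (emb F) := fun s t h =>
  reg_injective (SemidirectProduct.inr_injective (congrArg Subtype.val h))

/-- Conjugation by `k` induces a map of the system on `P`. -/
def Good (k : Equiv.Perm S) (P : Subgroup Ω) : Prop :=
  ∃ φ, φ ∈ F.Hom P ∧ ∃ (hP : P ≤ S) (hφ : ∀ x : P, φ x ∈ S),
    ∀ x : P, k * reg S ⟨x, hP x.2⟩ * k⁻¹ = reg S ⟨φ x, hφ x⟩

theorem good_reg (r : S) : Good F (reg S r) S :=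
  ⟨conjHom S (r : Ω), F.conj_mem le_rfl r.2, le_rfl,
    fun x => (F.le_of_mem (F.conj_mem le_rfl r.2)).2 x, fun x => by
    rw [← _root_.map_inv, ← _root_.map_mul, ← _root_.map_mul]
    rfl⟩

theorem good_perm (a : Idx F) : Good F a.perm a.1 :=
  ⟨a.2.1, a.2.2, a.source_le, a.target_mem, a.perm_spec⟩

theorem good_perm_inv (a : Idx F) : Good F a.perm⁻¹ a.2.1.range := by
  obtain ⟨ψ, hψ, hψe⟩ := F.inv_mem a.2.2
  refine ⟨ψ, hψ, (F.le_of_mem hψ).1, (F.le_of_mem hψ).2, fun x => ?_⟩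
  obtain ⟨_, y, rfl⟩ := x
  rw [show (⟨ψ ⟨a.2.1 y, ⟨y, rfl⟩⟩, (F.le_of_mem hψ).2 _⟩ : S) = ⟨y, a.source_le y.2⟩ from
    Subtype.ext (hψe y)]
  show a.perm⁻¹ * reg S ⟨a.2.1 y, _⟩ * a.perm⁻¹⁻¹ = _
  rw [← a.perm_spec y]
  group

theorem Good.comp {k k' : Equiv.Perm S} {P Q : Subgroup Ω} (hk : Good F k Q) (hk' : Good F k' P)
    (h : ∀ (hP : P ≤ S) (x : P) (t : S),
      k' * reg S ⟨x, hP x.2⟩ * k'⁻¹ = reg S t → (t : Ω) ∈ Q) :
    Good F (k * k') P := by
  obtain ⟨φ, hφ, hP, hφS, he⟩ := hk'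
  obtain ⟨ψ, hψ, hQ, hψS, he'⟩ := hk
  have hin : ∀ x : P, φ x ∈ Q := fun x => h hP x ⟨φ x, hφS x⟩ (he x)
  refine ⟨_, F.comp_mem hφ hψ hin, hP, fun x => hψS _, fun x => ?_⟩
  rw [mul_inv_rev, show k * k' * reg S ⟨x, hP x.2⟩ * (k'⁻¹ * k⁻¹) =
    k * (k' * reg S ⟨x, hP x.2⟩ * k'⁻¹) * k⁻¹ by group, he x]
  exact he' ⟨φ x, hin x⟩

theorem good_of_isPath : ∀ (n : ℕ) (L : List (Edge F × Bool)), L.length = n →
    ∀ (k : Equiv.Perm S) (P : Subgroup Ω) (hP : P ≤ S),
    IsPath (esrc F) (etgt F) ((1 : Equiv.Perm S) : Vert S) L (k : Vert S) →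
    (∀ x : P, ∃ t : S, k * reg S ⟨x, hP x.2⟩ * k⁻¹ = reg S t ∧ ∀ z ∈ L, reg S t • z.1 = z.1) →
    Good F k P := by
  intro n
  induction n with
  | zero =>
    intro L hL k P hP hp hx
    rw [List.length_eq_zero_iff] at hL
    subst hL
    obtain ⟨r, rfl⟩ := mk_eq_base.1 (show (k : Vert S) = _ from hp.symm)
    obtain ⟨φ, hφ, hS, hφS, he⟩ := good_reg F r
    refine ⟨conjHom P (r : Ω), F.conj_mem hP r.2, hP,
      fun x => (F.le_of_mem (F.conj_mem hP r.2)).2 x, fun x => ?_⟩
    rw [← _root_.map_inv, ← _root_.map_mul, ← _root_.map_mul]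
    rfl
  | succ n ih =>
    rintro (_ | ⟨⟨⟨a, q⟩, b⟩, L⟩) hL k P hP hp hx
    · simp at hL
    induction q using QuotientGroup.induction_on with | H g => ?_
    obtain ⟨h1, h2⟩ := hp
    -- reg t fixes the edge
    have hedge : ∀ t : S, reg S t • (⟨a, (g : Equiv.Perm S ⧸ a.stab)⟩ : Edge F) = ⟨a, g⟩ →
        g⁻¹ * reg S t * g ∈ a.stab := by
      intro t ht
      rw [edge_smul] at ht
      have h' := eq_of_heq (Sigma.mk.inj ht).2
      have h'' := QuotientGroup.eq.1 h'.symm
      rw [mul_assoc]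
      exact h''
    have hrest : ∀ (h k' : Equiv.Perm S), fin (esrc F) (etgt F) (⟨a, (g : Equiv.Perm S ⧸ a.stab)⟩, b) = (h : Vert S) →
        k = h * k' → (∀ t : S, reg S t • (⟨a, (g : Equiv.Perm S ⧸ a.stab)⟩ : Edge F) = ⟨a, g⟩ →
          ∃ t' : S, h⁻¹ * reg S t * h = reg S t') → Good F k' P := by
      intro h k' hfin hk ht
      refine ih (L.map fun z => (h⁻¹ • z.1, z.2)) (by simpa using hL) k' P hP ?_ fun x => ?_
      · have := isPath_smul (equivariant F) h⁻¹ h2
        rw [hfin, hk, ← smul_base h, ← smul_base (h * k'), inv_smul_smul, smul_smul,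
          inv_mul_cancel_left, smul_base] at this
        exact this
      · obtain ⟨t, ht1, ht2⟩ := hx x
        obtain ⟨t', ht'⟩ := ht t (ht2 _ List.mem_cons_self)
        refine ⟨t', ?_, fun z hz => ?_⟩
        · rw [← ht', ← ht1, hk]; group
        · obtain ⟨w, hw, rfl⟩ := List.mem_map.1 hz
          rw [← ht', smul_smul, mul_inv_cancel_right, mul_smul, ht2 w (List.mem_cons_of_mem _ hw)]
    cases b
    · -- inverse edge
      obtain ⟨r, hr⟩ := mk_eq_base.1 (show ((g * a.perm : Equiv.Perm S) : Vert S) = _ from h1)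
      have hg : g = reg S r * a.perm⁻¹ := by rw [hr]; group
      have hG : Good F g a.2.1.range := by
        rw [hg]
        refine (good_reg F r).comp F (good_perm_inv F a) fun _ _ t _ => t.2
      obtain hk' := hrest g (g⁻¹ * k) rfl (by group) fun t ht => by
        obtain ⟨x, hx'⟩ := a.mem_stab.1 (hedge t ht)
        exact ⟨_, hx'.symm⟩
      rw [show k = g * (g⁻¹ * k) by group]
      refine hG.comp F hk' fun hP x t ht => ?_
      obtain ⟨u, hu1, hu2⟩ := hx x
      obtain ⟨y, hy⟩ := a.mem_stab.1 (hedge u (hu2 _ List.mem_cons_self))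
      have : t = ⟨a.2.1 y, a.target_mem y⟩ := reg_injective (by rw [← ht, hy, ← hu1]; group)
      rw [this]
      exact ⟨y, rfl⟩
    · -- edge
      obtain ⟨r, rfl⟩ := mk_eq_base.1 (show ((g : Equiv.Perm S) : Vert S) = _ from h1)
      have hG : Good F (reg S r * a.perm) a.1 :=
        (good_reg F r).comp F (good_perm F a) fun _ _ t _ => t.2
      obtain hk' := hrest (reg S r * a.perm) ((reg S r * a.perm)⁻¹ * k) rfl (by group) fun t ht => by
        obtain ⟨x, hx'⟩ := a.mem_stab.1 (hedge t ht)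
        refine ⟨⟨x, a.source_le x.2⟩, ?_⟩
        rw [← a.perm_spec x] at hx'
        calc (reg S r * a.perm)⁻¹ * reg S t * (reg S r * a.perm)
            = a.perm⁻¹ * ((reg S r)⁻¹ * reg S t * reg S r) * a.perm := by group
          _ = _ := by rw [← hx']; group
      rw [show k = (reg S r * a.perm) * ((reg S r * a.perm)⁻¹ * k) by group]
      refine hG.comp F hk' fun hP x t ht => ?_
      obtain ⟨u, hu1, hu2⟩ := hx x
      obtain ⟨y, hy⟩ := a.mem_stab.1 (hedge u (hu2 _ List.mem_cons_self))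
      have : t = ⟨y, a.source_le y.2⟩ := reg_injective (by
        rw [← ht]
        calc _ = a.perm⁻¹ * ((reg S r)⁻¹ * reg S u * reg S r) * a.perm := by rw [← hu1]; group
          _ = _ := by rw [← hy, ← a.perm_spec y]; group)
      rw [this]
      exact y.2

theorem isRealizedBy_emb : F.IsRealizedBy (emb F) := by
  refine ⟨emb_injective F, fun P hP φ hφ => ⟨fun hmem => ?_, ?_⟩⟩
  · let a : Idx F := ⟨P, φ, hmem⟩
    let e : Edge F := ⟨a, ((1 : Equiv.Perm S) : Equiv.Perm S ⧸ a.stab)⟩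
    refine ⟨⟨⟨FreeGroup.of e, a.perm⟩, ?_⟩, fun x => ?_⟩
    · show IsPath (esrc F) (etgt F) _ (FreeGroup.of e).toWord (a.perm • _)
      rw [FreeGroup.toWord_of, smul_base]
      exact ⟨rfl, congrArg (QuotientGroup.mk (s := (reg S).range)) (one_mul a.perm)⟩
    · refine eq_mul_inv_of_mul_eq (Subtype.ext (SemidirectProduct.ext ?_ ?_))
      · show (1 : FreeGroup (Edge F)) * permAut (reg S ⟨φ x, hφ x⟩) (FreeGroup.of e) =
          FreeGroup.of e * permAut a.perm 1
        rw [one_mul, _root_.map_one, mul_one, permAut_apply, FreeGroup.map.of]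
        refine congrArg FreeGroup.of ?_
        show reg S ⟨φ x, hφ x⟩ • (⟨a, _⟩ : Edge F) = ⟨a, _⟩
        rw [edge_smul]
        refine Sigma.ext rfl (heq_of_eq ?_)
        show ((reg S ⟨φ x, hφ x⟩ * 1 : Equiv.Perm S) : Equiv.Perm S ⧸ a.stab) = _
        rw [mul_one, QuotientGroup.eq, mul_one, inv_mem_iff]
        exact a.mem_stab.2 ⟨x, rfl⟩
      · show reg S ⟨φ x, hφ x⟩ * a.perm = a.perm * reg S ⟨x, hP x.2⟩
        have := a.perm_spec x
        rw [← this]
        exact inv_mul_cancel_right _ _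
  · rintro ⟨⟨⟨w, k⟩, hg⟩, hconj⟩
    have hx : ∀ x : P, k * reg S ⟨x, hP x.2⟩ * k⁻¹ = reg S ⟨φ x, hφ x⟩ ∧
        ∀ z ∈ w.toWord, reg S ⟨φ x, hφ x⟩ • z.1 = z.1 := by
      intro x
      have h := congrArg Subtype.val (eq_mul_inv_iff_mul_eq.1 (hconj x))
      have hr : reg S ⟨φ x, hφ x⟩ * k = k * reg S ⟨x, hP x.2⟩ := congrArg SemidirectProduct.right h
      have hl : (1 : FreeGroup (Edge F)) * permAut (reg S ⟨φ x, hφ x⟩) w = w * permAut k 1 :=
        congrArg SemidirectProduct.left h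
      refine ⟨by rw [← hr, mul_inv_cancel_right], ?_⟩
      rw [one_mul, _root_.map_one, mul_one] at hl
      have h2 := congrArg FreeGroup.toWord hl
      rw [toWord_permAut] at h2
      intro z hz
      obtain ⟨i, hi, rfl⟩ := List.mem_iff_getElem.1 hz
      have h3 := List.getElem_of_eq h2 (i := i) (by simpa using hi)
      simp only [List.getElem_map] at h3
      exact congrArg Prod.fst h3
    have hg' : IsPath (esrc F) (etgt F) ((1 : Equiv.Perm S) : Vert S) w.toWord (k : Vert S) := by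
      rw [← smul_base]; exact hg
    obtain ⟨ψ, hψ, _, hψS, he⟩ := good_of_isPath F _ w.toWord rfl k P hP hg'
      fun x => ⟨_, (hx x).1, (hx x).2⟩
    rwa [show φ = ψ from MonoidHom.ext fun x =>
      congrArg Subtype.val (reg_injective ((hx x).1.symm.trans (he x)))]

/-- Every fusion system is realized by a virtually free group. -/
theorem exists_virtually_free :
    ∃ (G : Type u) (_ : Group G) (ι : S →* G), F.IsRealizedBy ι ∧
      (∀ H : Subgroup G, Finite H → ∃ g : G, ∀ h ∈ H, g * h * g⁻¹ ∈ ι.range) ∧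
      ∃ N : Subgroup G, N.Normal ∧ IsFreeGroup N ∧ N.index ∣ (Nat.card S).factorial := by
  refine ⟨RGroup F, inferInstance, emb F, isRealizedBy_emb F, fun H hH => ?_,
    (proj (equivariant F) _).ker, inferInstance, isFreeGroup_ker, ?_⟩
  · obtain ⟨g, hg⟩ := exists_conj_left_eq_one H
    refine ⟨g, fun h hh => ?_⟩
    set z := g * h * g⁻¹
    have hzl : z.1.left = 1 := hg h hh
    have hzp := mem_pathGroup.1 z.2
    rw [hzl, IsPathEl, FreeGroup.toWord_one, smul_base] at hzp
    obtain ⟨s, hs⟩ := mk_eq_base.1 (show (z.1.right : Vert S) = _ from hzp.symm)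
    exact ⟨s, Subtype.ext (SemidirectProduct.ext hzl.symm hs)⟩
  · rw [Subgroup.index_ker, ← Nat.card_perm]
    exact Subgroup.card_subgroup_dvd_card _

end Cfsg.Agent.H80.VFree
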