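import Mathlib

/-! Reduced words that are paths in a graph. -/

set_option autoImplicit false

namespace Cfsg.Agent.H80.VFree

open FreeGroup

universe u v
variable {E : Type u} {V : Type v} (src tgt : E → V)

/-- The initial vertex of a signed edge. -/
def start (x : E × Bool) : V := cond x.2 (src x.1) (tgt x.1)

/-- The final vertex of a signed edge. -/
def fin (x : E × Bool) : V := cond x.2 (tgt x.1) (src x.1)

/-- The list is a path from `a` to `b`. -/
def IsPath : V → List (E × Bool) → V → Prop
  | a, [], b => a = b
  | a, x :: l, b => start src tgt x = a ∧ IsPath (fin src tgt x) l b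

variable {src tgt}

theorem isPath_append {l m : List (E × Bool)} : ∀ {a c : V},
    IsPath src tgt a (l ++ m) c ↔ ∃ b, IsPath src tgt a l b ∧ IsPath src tgt b m c := by
  induction l with
  | nil => intro a c; simp [IsPath]
  | cons x l ih =>
    intro a c
    simp only [List.cons_append, IsPath, ih]
    constructor
    · rintro ⟨h, b, hb, hc⟩; exact ⟨b, ⟨h, hb⟩, hc⟩
    · rintro ⟨b, ⟨h, hb⟩, hc⟩; exact ⟨h, b, hb, hc⟩

theorem start_flip (x : E) (s : Bool) : start src tgt (x, !s) = fin src tgt (x, s) := by
  cases s <;> rfl

theorem fin_flip (x : E) (s : Bool) : fin src tgt (x, !s) = start src tgt (x, s) := by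
  cases s <;> rfl

theorem isPath_step {L L' : List (E × Bool)} (h : Red.Step L L') {a c : V}
    (hp : IsPath src tgt a L c) : IsPath src tgt a L' c := by
  cases h with
  | @not L₁ L₂ x s =>
    obtain ⟨b, h1, h2⟩ := isPath_append.1 hp
    simp only [IsPath] at h2
    obtain ⟨hs, -, h3⟩ := h2
    rw [fin_flip, hs] at h3
    exact isPath_append.2 ⟨b, h1, h3⟩

theorem isPath_red {L L' : List (E × Bool)} (h : Red L L') {a c : V}
    (hp : IsPath src tgt a L c) : IsPath src tgt a L' c := by
  induction h with
  | refl => exact hp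
  | tail _ h ih => exact isPath_step h ih

theorem isPath_invRev {L : List (E × Bool)} : ∀ {a c : V}, IsPath src tgt a L c →
    IsPath src tgt c (invRev L) a := by
  induction L with
  | nil => intro a c h; exact h.symm
  | cons x L ih =>
    intro a c h
    obtain ⟨h1, h2⟩ := h
    rw [invRev, List.map_cons, List.reverse_cons]
    refine isPath_append.2 ⟨fin src tgt x, ih h2, ?_, ?_⟩
    · exact start_flip x.1 x.2
    · rw [fin_flip]; exact h1

variable [DecidableEq E]

/-- The reduced word of `w` is a path from `a` to `b`. -/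
def IsPathEl (src tgt : E → V) (a : V) (w : FreeGroup E) (b : V) : Prop :=
  IsPath src tgt a w.toWord b

theorem isPathEl_one (a : V) : IsPathEl src tgt a 1 a := by
  unfold IsPathEl
  rw [toWord_one]
  rfl

theorem IsPathEl.mul {a b c : V} {x y : FreeGroup E} (hx : IsPathEl src tgt a x b)
    (hy : IsPathEl src tgt b y c) : IsPathEl src tgt a (x * y) c := by
  unfold IsPathEl
  rw [toWord_mul]
  exact isPath_red reduce.red (isPath_append.2 ⟨b, hx, hy⟩)

theorem IsPathEl.inv {a b : V} {x : FreeGroup E} (hx : IsPathEl src tgt a x b) :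
    IsPathEl src tgt b x⁻¹ a := by
  unfold IsPathEl
  rw [toWord_inv]
  exact isPath_invRev hx

theorem toWord_map_injective {E' : Type*} [DecidableEq E'] {f : E → E'} (hf : Function.Injective f)
    (x : FreeGroup E) :
    (FreeGroup.map f x).toWord = x.toWord.map (fun z => (f z.1, z.2)) := by
  conv_lhs => rw [← mk_toWord (x := x), map.mk, toWord_mk]
  refine FreeGroup.IsReduced.reduce_eq ?_
  unfold FreeGroup.IsReduced
  rw [List.isChain_map]
  have h : FreeGroup.IsReduced x.toWord := isReduced_toWord
  exact h.imp fun a b hab he => hab (hf he)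

theorem eq_mk_singleton_mul {x : FreeGroup E} {a : E × Bool} {r : List (E × Bool)}
    (h : x.toWord = a :: r) : x = mk [a] * mk r ∧ (mk r).toWord = r := by
  refine ⟨?_, ?_⟩
  · rw [mul_mk]
    exact (mk_toWord (x := x)).symm.trans (congrArg mk h)
  · rw [toWord_mk]
    refine FreeGroup.IsReduced.reduce_eq ((isReduced_toWord (x := x)).infix ?_)
    rw [h]
    exact (List.suffix_cons a r).isInfix

theorem toWord_mk_singleton (a : E × Bool) : (mk [a] : FreeGroup E).toWord = [a] := by
  rw [toWord_mk]
  exact FreeGroup.IsReduced.singleton.reduce_eq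

theorem toWord_inv_mul_of_head {x : FreeGroup E} {a : E × Bool} {r : List (E × Bool)}
    (h : x.toWord = a :: r) : ((mk [a])⁻¹ * x).toWord = r := by
  obtain ⟨h1, h2⟩ := eq_mk_singleton_mul h
  rw [h1, inv_mul_cancel_left, h2]

/-- When the first letters differ, `u⁻¹ * w` has no cancellation. -/
theorem norm_inv_mul_of_head_ne {x y : FreeGroup E} {a : E × Bool} {r : List (E × Bool)}
    (hx : x.toWord = a :: r) (hy : y.toWord.head? ≠ some a) :
    FreeGroup.norm (x⁻¹ * y) = FreeGroup.norm x + FreeGroup.norm y := by
  have hred : FreeGroup.IsReduced (invRev x.toWord ++ y.toWord) := by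
    unfold FreeGroup.IsReduced
    rw [List.isChain_append]
    have h1 : FreeGroup.IsReduced (invRev x.toWord) := by
      rw [← toWord_inv]; exact isReduced_toWord
    refine ⟨h1, isReduced_toWord, fun s hs t ht => ?_⟩
    rw [hx, invRev, List.map_cons, List.reverse_cons, List.getLast?_append] at hs
    simp at hs
    subst hs
    intro he
    have : t ≠ a := fun e => hy (by rw [← e]; exact ht)
    by_contra hne
    refine this (Prod.ext he.symm ?_)
    revert hne
    cases t.2 <;> cases a.2 <;> simp
  rw [FreeGroup.norm, toWord_mul, toWord_inv, hred.reduce_eq, List.length_append, invRev_length]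
  rfl

/-- The sum of exponents. -/
def expSum : FreeGroup E →* Multiplicative ℤ :=
  FreeGroup.lift fun _ => Multiplicative.ofAdd 1

theorem expSum_map {E' : Type*} (f : E → E') (x : FreeGroup E) :
    expSum (FreeGroup.map f x) = expSum x := by
  have : (expSum (E := E')).comp (FreeGroup.map f) = expSum := by
    ext a; simp [expSum]
  exact DFunLike.congr_fun this x

theorem norm_mod_two (x : FreeGroup E) :
    ((FreeGroup.norm x : ℕ) : ZMod 2) = ((Multiplicative.toAdd (expSum x) : ℤ) : ZMod 2) := by
  have key : ∀ L : List (E × Bool), ((L.length : ℕ) : ZMod 2) =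
      ((Multiplicative.toAdd (expSum (mk L)) : ℤ) : ZMod 2) := by
    intro L
    induction L with
    | nil =>
      rw [← one_eq_mk, _root_.map_one]
      simp
    | cons a L ih =>
      rw [show (mk (a :: L) : FreeGroup E) = mk [a] * mk L by rw [mul_mk]; rfl, _root_.map_mul,
        toAdd_mul, Int.cast_add, ← ih, List.length_cons, Nat.cast_succ, add_comm]
      congr 1
      rcases a with ⟨e, _ | _⟩
      · simp [expSum]
      · simp [expSum]
  rw [FreeGroup.norm, key, mk_toWord]

/-- Either the first step from `1` towards `u` is strictly better than the distances to `1` or `u`. -/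
theorem norm_step {u w : FreeGroup E} {a : E × Bool} {r : List (E × Bool)} (hu : u.toWord = a :: r) :
    FreeGroup.norm ((mk [a])⁻¹ * w) + 1 = FreeGroup.norm w ∨
      (FreeGroup.norm ((mk [a])⁻¹ * w) = FreeGroup.norm w + 1 ∧ FreeGroup.norm (u⁻¹ * w) = FreeGroup.norm u + FreeGroup.norm w) := by
  by_cases h : w.toWord.head? = some a
  · left
    obtain ⟨r', hr⟩ : ∃ r', w.toWord = a :: r' := by
      cases hw : w.toWord with
      | nil => rw [hw] at h; simp at h
      | cons b l => rw [hw] at h; simp at h; exact ⟨l, by rw [h]⟩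
    rw [FreeGroup.norm, FreeGroup.norm, toWord_inv_mul_of_head hr, hr]
    rfl
  · right
    refine ⟨?_, norm_inv_mul_of_head_ne hu h⟩
    rw [norm_inv_mul_of_head_ne (toWord_mk_singleton a) h, FreeGroup.norm, toWord_mk_singleton]
    simp [add_comm]

end Cfsg.Agent.H80.VFree
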